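import Cfsg.Agent.H910.Rl.ThreeOrd
import Cfsg.Agent.H851.Rl.Tools
import Cfsg.Agent.H592.Rl.Classes9
import Cfsg.Agent.H803.Rl.UNot
import Cfsg.Agent.H294.Rl.Size
import Cfsg.Agent.H16.BR.Idx

/-!
# S3691, PSL-13: `PSL_3(q)` (helper910)

* `kill_unitary` : no factor consists of similarities of a unitary form
* `side_le` : a factor of order divisible by a `p`-primitive prime divisor of `q^3 - 1` is small
* `red_three` : the other factor fixes a point and induces at least `SL_2(q)` (after a change of the identification)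
-/

set_option autoImplicit false
set_option linter.unusedSectionVars false

namespace Cfsg.Agent.H910.Rl

open Cfsg Cfsg.Geo Matrix Module Cfsg.Agent.H728.DghpNum Cfsg.Agent.H454.Reg Cfsg.Agent.H304.Ppd Cfsg.Agent.H851.Rl
open scoped MatrixGroups

universe u

section

variable {F : Type} [Field F] [Fintype F]

/-- residual groups -/
theorem res_dvd {R H : Subgroup (GL (Fin 3) F)} (hH : IsMaximalIn (specialLinear (Fin 3) F) H) (hRH : R ≤ H)
    (hres : InLinearResidualClass H) : Nat.card R ∣ 1008 ∨ Nat.card R ∣ 4320 := by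
  have h0 := Subgroup.card_dvd_of_le hRH
  obtain ⟨P, p, hP, -, -, ⟨⟨e⟩, -⟩ | ⟨⟨e⟩, -⟩⟩ := S5776.result H hH hres
  · exact Or.inl (h0.trans (H895.SLT.card_of_l hP hH.1.le e))
  · exact Or.inr (h0.trans (H895.SLT.card_of_a hP hH.1.le e))

theorem exists_order {R : Subgroup (GL (Fin 3) F)} {r : ℕ} (hr : r.Prime) (h : r ∣ Nat.card R) :
    ∃ x ∈ R, orderOf x = r := by
  have := Fact.mk hr
  have hfin : Finite (GL (Fin 3) F) := inferInstance
  obtain ⟨x, hx⟩ := exists_prime_orderOf_dvd_card' r h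
  exact ⟨x, x.2, by rw [Subgroup.orderOf_coe, hx]⟩

/-- a group of order divisible by a primitive prime of degree `3` fixes no subspace of dimension `1` or `2` -/
theorem no_stab {R : Subgroup (GL (Fin 3) F)} {r : ℕ} (hr : Ppd (Fintype.card F) 3 r) (h : r ∣ Nat.card R)
    {W : Submodule F (Fin 3 → F)} (hW : finrank F W = 1 ∨ finrank F W = 2) (hR : R ≤ subspaceStabilizer W) : False := by
  obtain ⟨x, hxR, hx⟩ := exists_order hr.prime h
  have h1 := le_finrank_of_mem_stabilizer hr hx (mem_of_subspaceStabilizer (hR hxR))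
  rw [Fintype.card_fin] at h1
  omega

variable {G : Type u} [Group G] [Finite G] {T X Y : Subgroup G}

/-- the unitary case -/
theorem kill_unitary (h : Fac T X Y) (e : T ≃* Matrix.ProjectiveSpecialLinearGroup (Fin 3) F)
    (hq : 8000 < Fintype.card F) {σ : F ≃+* F} {g : (Fin 3 → F) → (Fin 3 → F) → F} (hg : IsUnitaryForm σ g)
    (hX : pg e X ≤ similarityGroup g) : False := by
  have hfin : Finite (GL (Fin 3) F) := inferInstance
  obtain ⟨p, k, hp, hchar, hF, hσ⟩ := exists_frobenius hg.ne_refl hg.involutive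
  have hpF := Fact.mk hp
  have hF' : Fintype.card F = p ^ (2 * k) := by rw [hF, ← pow_mul, mul_comm]
  have hk : 1 ≤ k := by
    rcases Nat.eq_zero_or_pos k with h0 | h0
    · rw [h0, pow_zero, one_pow] at hF; omega
    · exact h0
  have h2k : ¬ (p = 2 ∧ k ≤ 2) := by
    rintro ⟨rfl, h0⟩
    have : (2 ^ k) ^ 2 ≤ (2 ^ 2) ^ 2 := Nat.pow_le_pow_left (Nat.pow_le_pow_right (by norm_num) h0) 2
    omega
  -- the prime of degree `3`
  obtain ⟨r, hr, hord, hr3, hside⟩ := H851.Rl.kill h le_rfl e (k := 3) hp hF' (by norm_num) le_rfl (by decide)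
    (fun h0 => h2k ⟨h0.1, by omega⟩)
  have hrX : ¬ r ∣ Nat.card (pg e X) := fun hd =>
    H803.Rl.u_not2 hg hF hr hord (by decide) (by rw [Fintype.card_fin]; norm_num) (by rw [Fintype.card_fin]; norm_num)
      (hd.trans (Subgroup.card_dvd_of_le hX))
  have hrY : r ∣ Nat.card (pg e Y) := hside.resolve_left hrX
  -- the prime of degree `4`
  obtain ⟨u, hu⟩ := exists_ppd (q := p) (e := 2 * k * 2) hp.two_le (by omega) (fun h0 => h2k ⟨h0.1, by omega⟩)
  have hu4 : Ppd (p ^ k) 4 u := ppd_of hp hk rfl hu.prime (by rw [hu.ord]; ring) (by norm_num)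
  have hu2 : Ppd (Fintype.card F) 2 u := ppd_of hp (by omega) hF' hu.prime hu.ord (by norm_num)
  have hult := hu.lt
  have huX : ¬ u ∣ Nat.card (pg e X) := by
    intro hd
    obtain ⟨x, hxR, hx⟩ := exists_order hu.prime hd
    have h1 := odd_of_unitary (e := 2) hF hu4 le_rfl (by rw [Fintype.card_fin]; norm_num) hx hσ hg (hX hxR)
    exact absurd h1 (by decide)
  have huf : ¬ u ∣ 2 * (2 * k) := fun hd => by
    have := Nat.le_of_dvd (by omega) hd
    omega
  have huY : u ∣ Nat.card (pg e Y) := by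
    have hv : u ∣ u ^ (Fintype.card F ^ 2 - 1).factorization u := by
      apply dvd_pow_self
      have h3 : u ∣ Fintype.card F ^ 2 - 1 := (hu2.dvd_iff 2).2 dvd_rfl
      have h4 : Fintype.card F ^ 2 - 1 ≠ 0 := by
        have : 2 ^ 2 ≤ Fintype.card F ^ 2 := Nat.pow_le_pow_left (by omega) 2
        omega
      exact (hu.prime.factorization_pos_of_dvd h4 h3).ne'
    rcases H815.Rl.side h le_rfl e hp hF' hu.prime hu2.ord (by norm_num) (by norm_num) huf with h3 | h3
    · exact absurd (hv.trans h3.1) huX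
    · exact hv.trans h3.1
  -- the classes for the other factor
  rcases H592.Rl.classes9 (k := 2) le_rfl (by norm_num) (by norm_num) (by norm_num) hp hF' hu.prime hu.ord
    (pg_le e Y) (not_sl_le e h.not_le_right) huY with ⟨-, W, hW, h1⟩ | h1 | ⟨-, h1, -⟩ | ⟨h1, -⟩ | ⟨H, hH, hYH, hres⟩
  · exact no_stab hr3 hrY (by omega) h1
  · rcases h1 with ⟨s, K, hs, h3, h2, -, -⟩ | ⟨-, h3, -⟩ | ⟨-, Q, hQ, h3⟩ | ⟨h3, -⟩
    · rw [Fintype.card_fin] at h3
      have h4 := (Nat.prime_dvd_prime_iff_eq hs Nat.prime_three).1 h3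
      have h5 := (Nat.prime_dvd_prime_iff_eq hs Nat.prime_two).1 h2
      omega
    · rw [Fintype.card_fin] at h3
      exact absurd h3 (by decide)
    · obtain ⟨x, hxR, hx⟩ := exists_order hr hrY
      exact absurd (even_of_quadratic hr3 (by norm_num) (by rw [Fintype.card_fin]; norm_num) hx hQ (h3 hxR)) (by decide)
    · exact absurd h3 (by decide)
  · omega
  · omega
  · rcases res_dvd hH hYH hres with h1 | h1
    · have h2 : u ∣ 1008 := huY.trans h1
      have h3 : u ∈ Nat.primeFactors 1008 := Nat.mem_primeFactors.2 ⟨hu.prime, h2, by norm_num⟩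
      have h4 : Nat.primeFactors 1008 = {2, 3, 7} := by
        rw [show 1008 = 2 ^ 4 * (3 ^ 2 * 7) by norm_num, Nat.primeFactors_mul (by norm_num) (by norm_num),
          Nat.primeFactors_mul (by norm_num) (by norm_num), Nat.primeFactors_prime_pow (by norm_num) Nat.prime_two,
          Nat.primeFactors_prime_pow (by norm_num) Nat.prime_three, Nat.Prime.primeFactors (by norm_num)]
        rfl
      rw [h4, Finset.mem_insert, Finset.mem_insert, Finset.mem_singleton] at h3
      have h5 := hu4.dvd_pred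
      omega
    · have h2 : r ∣ 4320 := hrY.trans h1
      have h3 : r ∈ Nat.primeFactors 4320 := Nat.mem_primeFactors.2 ⟨hr, h2, by norm_num⟩
      have h4 : Nat.primeFactors 4320 = {2, 3, 5} := by
        rw [show 4320 = 2 ^ 5 * (3 ^ 3 * 5) by norm_num, Nat.primeFactors_mul (by norm_num) (by norm_num),
          Nat.primeFactors_mul (by norm_num) (by norm_num), Nat.primeFactors_prime_pow (by norm_num) Nat.prime_two,
          Nat.primeFactors_prime_pow (by norm_num) Nat.prime_three, Nat.Prime.primeFactors (by norm_num)]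
        rfl
      rw [h4, Finset.mem_insert, Finset.mem_insert, Finset.mem_singleton] at h3
      have h5 := hr3.dvd_pred
      omega

/-- the factor of order divisible by a `p`-primitive prime divisor of `q^3 - 1` -/
theorem side_le (h : Fac T X Y) (e : T ≃* Matrix.ProjectiveSpecialLinearGroup (Fin 3) F)
    (hq : 8000 < Fintype.card F) {p f r : ℕ} (hp : p.Prime) (hF : Fintype.card F = p ^ f) (hr : Ppd p (f * 3) r)
    (hrX : r ∣ Nat.card (pg e X)) : Nat.card (pg e X) * (Fintype.card F - 1) ≤ 3 * Fintype.card F ^ 3 := by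
  have hfin : Finite (GL (Fin 3) F) := inferInstance
  rcases H592.Rl.classes9 (k := 3) le_rfl (by norm_num) (by norm_num) (by norm_num) hp hF hr.prime hr.ord
    (pg_le e X) (not_sl_le e h.not_le_left) hrX with ⟨h1, -⟩ | h1 | ⟨h1, -⟩ | ⟨h1, -⟩ | ⟨H, hH, hXH, hres⟩
  · omega
  · rcases h1 with ⟨s, K, hs, h3, -, hK, h1⟩ | ⟨h3, -⟩ | ⟨h3, -⟩ | ⟨-, σ, g, hg, h3⟩
    · rw [Fintype.card_fin] at h3
      have h4 := (Nat.prime_dvd_prime_iff_eq hs Nat.prime_three).1 h3
      subst h4
      refine (Nat.mul_le_mul_right _ (Subgroup.card_le_of_le (le_inf h1 (pg_le e X)))).trans (ext_le hK)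
    · exact absurd h3 (by decide)
    · exact absurd h3 (by decide)
    · exact (kill_unitary h e hq hg h3).elim
  · omega
  · omega
  · have h1 : Nat.card (pg e X) ≤ 4320 := by
      rcases res_dvd hH hXH hres with h1 | h1
      · exact (Nat.le_of_dvd (by norm_num) h1).trans (by norm_num)
      · exact Nat.le_of_dvd (by norm_num) h1
    calc Nat.card (pg e X) * (Fintype.card F - 1) ≤ 4320 * Fintype.card F := Nat.mul_le_mul h1 (Nat.sub_le _ _)
      _ ≤ 3 * Fintype.card F ^ 2 * Fintype.card F := Nat.mul_le_mul_right _ (by nlinarith)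
      _ = 3 * Fintype.card F ^ 3 := by ring

/-- the other factor is large -/
theorem other_ge (h : Fac T X Y) (e : T ≃* Matrix.ProjectiveSpecialLinearGroup (Fin 3) F)
    (hq : 8000 < Fintype.card F) {p f : ℕ} (hp : p.Prime) (hF : Fintype.card F = p ^ f)
    (hX : Nat.card (pg e X) * (Fintype.card F - 1) ≤ 3 * Fintype.card F ^ 3) :
    (Fintype.card F - 1) * (Fintype.card F ^ 2 - 1) * (Fintype.card F ^ 3 - 1) ≤ 6 * f * Nat.card (pg e Y) := by
  have h1 := H815.Rl.card_le_pg h le_rfl e hp hF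
  have h2 := H294.Rl.card_sl_mul (F := F) (n := 3) (by norm_num)
  set q := Fintype.card F with hqd
  have h3 : H294.Rl.PG q 3 = q ^ 3 * ((q - 1) * (q ^ 2 - 1) * (q ^ 3 - 1)) := by
    have e1 : q ^ 3 - q ^ 0 = q ^ 3 - 1 := by rw [pow_zero]
    have e2 : q ^ 3 - q ^ 1 = q * (q ^ 2 - 1) := by rw [Nat.mul_sub, mul_one, pow_one]; congr 1; ring
    have e3 : q ^ 3 - q ^ 2 = q ^ 2 * (q - 1) := by rw [Nat.mul_sub, mul_one]; congr 1
    unfold H294.Rl.PG
    rw [Finset.prod_range_succ, Finset.prod_range_succ, Finset.prod_range_one, e1, e2, e3]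
    ring
  rw [h3] at h2
  refine Nat.le_of_mul_le_mul_left (c := q ^ 3) ?_ (Nat.pow_pos (by omega))
  calc q ^ 3 * ((q - 1) * (q ^ 2 - 1) * (q ^ 3 - 1)) = Nat.card (specialLinear (Fin 3) F) * (q - 1) := h2.symm
    _ ≤ 2 * f * Nat.card (pg e X) * Nat.card (pg e Y) * (q - 1) := Nat.mul_le_mul_right _ h1
    _ = 2 * f * Nat.card (pg e Y) * (Nat.card (pg e X) * (q - 1)) := by ring
    _ ≤ 2 * f * Nat.card (pg e Y) * (3 * q ^ 3) := Nat.mul_le_mul_left _ hX
    _ = q ^ 3 * (6 * f * Nat.card (pg e Y)) := by ring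

/-- a large subgroup of `GL_2(q)` contains `SL_2(q)` -/
theorem sl_two_le (hq : 12 ≤ Fintype.card F) {S : Subgroup (GL (Fin 2) F)} (h : S.index ≤ Fintype.card F) :
    specialLinear (Fin 2) F ≤ S := by
  have hfin : Finite (GL (Fin 2) F) := inferInstance
  have h1 : S.comap (Matrix.SpecialLinearGroup.toGL (n := Fin 2) (R := F)) = ⊤ := by
    by_contra hcon
    have h2 := H16.BR.idx_sl_two hq hcon
    rw [Subgroup.index_comap] at h2
    have h3 : S.relIndex (Matrix.SpecialLinearGroup.toGL (n := Fin 2) (R := F)).range ≤ S.relIndex ⊤ :=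
      Subgroup.relIndex_le_of_le_right le_top (by
        rw [Subgroup.relIndex_top_right]; exact Subgroup.index_ne_zero_of_finite)
    rw [Subgroup.relIndex_top_right] at h3
    omega
  rw [← H304.PslT.range_toGL]
  rintro _ ⟨x, rfl⟩
  have h4 : x ∈ S.comap (Matrix.SpecialLinearGroup.toGL (n := Fin 2) (R := F)) := by rw [h1]; exact Subgroup.mem_top x
  exact h4

/-- one side -/
theorem red_side (h : Fac T X Y) (e : T ≃* Matrix.ProjectiveSpecialLinearGroup (Fin 3) F)
    (hq : 8000 < Fintype.card F) {p f : ℕ} (hp : p.Prime) (hF : Fintype.card F = p ^ f)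
    (hX : Nat.card (pg e X) * (Fintype.card F - 1) ≤ 3 * Fintype.card F ^ 3) :
    ∃ (e' : T ≃* Matrix.ProjectiveSpecialLinearGroup (Fin 3) F) (v : Fin 3 → F), Pt (pg e' Y) v := by
  have hfin : Finite (GL (Fin 3) F) := inferInstance
  have hY := other_ge h e hq hp hF hX
  have hf := exp_le hp.two_le hF hq
  have hlow := (low (show 2 ≤ Fintype.card F by omega)).trans hY
  obtain ⟨H, hH, hYH⟩ := H905.exists_isMaximalIn_of_lt (lt_of_le_not_ge (pg_le e Y) (not_sl_le e h.not_le_right))
  have hle : Nat.card (pg e Y) ≤ Nat.card H := Subgroup.card_le_of_le hYH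
  rcases red_or_le hq hH with ⟨W, h0, h1, hHW⟩ | hB | ⟨q0, h0, hB⟩ | ⟨q0, h0, hB⟩
  · have h3 : 0 < finrank F W := Nat.pos_of_ne_zero fun h => h0 (Submodule.finrank_eq_zero.mp h)
    have h4 : finrank F W < 3 := by
      have := Submodule.finrank_lt h1
      rwa [Module.finrank_fintype_fun_eq_card, Fintype.card_fin] at this
    obtain ⟨e', v, hv, hfix, hcard⟩ := point_of le_rfl e Y (show finrank F W = 1 ∨ finrank F W + 1 = 3 by omega)
      (hYH.trans hHW)
    refine ⟨e', v, ?_⟩
    by_contra hno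
    obtain ⟨S, hS, hS2, -⟩ := block_card (m := 2) hv (pg_le e' Y) hfix hno
    apply hS
    apply sl_two_le (by omega)
    rw [hcard] at hS2
    refine block_index hq hf (hY.trans (Nat.mul_le_mul_left _ hS2)) ?_
    rw [Subgroup.card_mul_index, Matrix.card_GL_field, Fin.prod_univ_two]
    simp
  · exact (kill_small hq hf (hle.trans hB) hlow).elim
  · exact (kill_six hq hf h0 (hle.trans hB) hlow).elim
  · exact (kill_sub hq hf h0 (hle.trans hB) hlow).elim

/-- **PSL-13** -/
theorem red_three (h : Fac T X Y) (e : T ≃* Matrix.ProjectiveSpecialLinearGroup (Fin 3) F) :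
    ∃ (e' : T ≃* Matrix.ProjectiveSpecialLinearGroup (Fin 3) F) (v : Fin 3 → F), Pt (pg e' X) v ∨ Pt (pg e' Y) v := by
  have hq : 8000 < Fintype.card F := (H294.Rl.q_ge h le_rfl e).1 rfl
  obtain ⟨p, hchar⟩ := CharP.exists F
  have hp : p.Prime := CharP.char_is_prime F p
  obtain ⟨f, -, hF⟩ := FiniteField.card F p
  have hf : 1 ≤ (f : ℕ) := f.2
  have h6 : ¬ (p = 2 ∧ (f : ℕ) * 3 = 6) := by
    rintro ⟨h1, h2⟩
    have h3 : (f : ℕ) = 2 := by omega
    rw [hF, h1, h3] at hq
    omega
  obtain ⟨r, hr⟩ := exists_ppd (q := p) (e := f * 3) hp.two_le (by omega) h6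
  have hr3 : Ppd (Fintype.card F) 3 r := ppd_of hp hf hF hr.prime hr.ord (by norm_num)
  have hlt := hr.lt
  have hrf : ¬ r ∣ 2 * (f : ℕ) := fun hd => by
    have := Nat.le_of_dvd (by omega) hd
    omega
  have hv : r ∣ r ^ (Fintype.card F ^ 3 - 1).factorization r := by
    apply dvd_pow_self
    have h3 : r ∣ Fintype.card F ^ 3 - 1 := (hr3.dvd_iff 3).2 dvd_rfl
    have h4 : Fintype.card F ^ 3 - 1 ≠ 0 := by
      have : 2 ^ 3 ≤ Fintype.card F ^ 3 := Nat.pow_le_pow_left (by omega) 3
      omega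
    exact (hr.prime.factorization_pos_of_dvd h4 h3).ne'
  rcases H815.Rl.side h le_rfl e hp hF hr.prime hr3.ord (by norm_num) (by norm_num) hrf with h3 | h3
  · obtain ⟨e', v, h4⟩ := red_side h e hq hp hF (side_le h e hq hp hF hr (hv.trans h3.1))
    exact ⟨e', v, Or.inr h4⟩
  · obtain ⟨e', v, h4⟩ := red_side h.symm e hq hp hF (side_le h.symm e hq hp hF hr (hv.trans h3.1))
    exact ⟨e', v, Or.inl h4⟩

end

end Cfsg.Agent.H910.Rl
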